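import Mathlib

/-! Counting solutions of `g ^ d = 1` in small groups, by kernel evaluation. -/

set_option autoImplicit false

namespace Cfsg.Agent.Lib.OrdType

open Subgroup

/-- number of solutions of `g ^ d = 1` -/
noncomputable def ee (G : Type) [Group G] (d : ℕ) : ℕ := Nat.card {g : G // g ^ d = 1}

theorem ee_prod (G H : Type) [Group G] [Group H] (d : ℕ) : ee (G × H) d = ee G d * ee H d := by
  unfold ee
  rw [← Nat.card_prod]
  refine Nat.card_congr
    { toFun := fun x => (⟨x.1.1, congrArg Prod.fst x.2⟩, ⟨x.1.2, congrArg Prod.snd x.2⟩)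
      invFun := fun x => ⟨(x.1.1, x.2.1), Prod.ext x.1.2 x.2.2⟩
      left_inv := fun _ => rfl
      right_inv := fun _ => rfl }

theorem ee_gcd {G : Type} [Group G] {E : ℕ} (hE : ∀ g : G, g ^ E = 1) (n : ℕ) :
    ee G n = ee G (Nat.gcd n E) := by
  unfold ee
  refine Nat.card_congr (Equiv.subtypeEquivRight fun g => ?_)
  rw [← orderOf_dvd_iff_pow_eq_one, ← orderOf_dvd_iff_pow_eq_one, Nat.dvd_gcd_iff]
  exact ⟨fun h => ⟨h, orderOf_dvd_of_pow_eq_one (hE g)⟩, fun h => h.1⟩

theorem ee_eq_sum (G : Type) [Group G] [Finite G] {n : ℕ} (hn : n ≠ 0) :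
    ee G n = ∑ d ∈ n.divisors, Nat.card {g : G // orderOf g = d} := by
  classical
  haveI := Fintype.ofFinite G
  unfold ee
  simp only [Nat.card_eq_fintype_card, Fintype.card_subtype]
  rw [Finset.card_eq_sum_card_fiberwise (f := fun g => orderOf g) (t := n.divisors)]
  · refine Finset.sum_congr rfl fun d hd => ?_
    congr 1
    ext g
    simp only [Finset.mem_filter, Finset.mem_univ, true_and, and_iff_right_iff_imp]
    intro h
    rw [← orderOf_dvd_iff_pow_eq_one, h]
    exact Nat.dvd_of_mem_divisors hd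
  · intro g hg
    simp only [Finset.coe_filter, Finset.mem_univ, true_and, Set.mem_setOf_eq] at hg
    simp only [Finset.mem_coe, Nat.mem_divisors]
    exact ⟨orderOf_dvd_of_pow_eq_one hg, hn⟩

theorem orderType_eq {G H : Type} [Group G] [Group H] [Finite G] [Finite H]
    (h : ∀ n, ee G n = ee H n) (n : ℕ) :
    Nat.card {g : G // orderOf g = n} = Nat.card {g : H // orderOf g = n} := by
  induction n using Nat.strong_induction_on with
  | _ n ih =>
    rcases Nat.eq_zero_or_pos n with rfl | hn
    · haveI : IsEmpty {g : G // orderOf g = 0} := ⟨fun g => (orderOf_pos g.1).ne' g.2⟩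
      haveI : IsEmpty {g : H // orderOf g = 0} := ⟨fun g => (orderOf_pos g.1).ne' g.2⟩
      rw [Nat.card_of_isEmpty, Nat.card_of_isEmpty]
    · have h1 := h n
      rw [ee_eq_sum G hn.ne', ee_eq_sum H hn.ne', ← Nat.insert_self_properDivisors hn.ne',
        Finset.sum_insert Nat.self_notMem_properDivisors,
        Finset.sum_insert Nat.self_notMem_properDivisors] at h1
      have h2 : ∑ d ∈ n.properDivisors, Nat.card {g : G // orderOf g = d} =
          ∑ d ∈ n.properDivisors, Nat.card {g : H // orderOf g = d} :=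
        Finset.sum_congr rfl fun d hd => ih d (Nat.mem_properDivisors.1 hd).2
      omega

/-- first `k' ≥ k` with `t (x * g ^ (k' - k))`, or `0` -/
def ordAux {G : Type} [Mul G] (t : G → Bool) (g : G) : ℕ → ℕ → G → ℕ :=
  fun f => Nat.rec (fun _ _ => 0) (fun _ r k x => cond (t x) k (r (k + 1) (x * g))) f

theorem ordAux_spec {G H : Type} [Group G] [Group H] (π : G →* H) (t : G → Bool)
    (ht : ∀ x, t x = true ↔ π x = 1) (g : G) (f : ℕ) :
    ∀ k, 0 < k → (∀ m, 0 < m → m < k → π g ^ m ≠ 1) → ordAux t g f k (g ^ k) ≠ 0 →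
      orderOf (π g) = ordAux t g f k (g ^ k) := by
  induction f with
  | zero => intro k _ _ h; exact absurd rfl h
  | succ f ih =>
    intro k hk hm h
    have e : ordAux t g (f + 1) k (g ^ k) =
        cond (t (g ^ k)) k (ordAux t g f (k + 1) (g ^ k * g)) := rfl
    rw [e] at h ⊢
    cases hc : t (g ^ k) with
    | true =>
      simp only [cond_true]
      rw [orderOf_eq_iff hk]
      refine ⟨by rw [← map_pow]; exact (ht _).1 hc, fun m h1 h2 => hm m h2 h1⟩
    | false =>
      rw [hc] at h
      simp only [cond_false] at h ⊢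
      rw [← pow_succ] at h ⊢
      refine ih (k + 1) (Nat.succ_pos _) (fun m h1 h2 => ?_) h
      rcases Nat.lt_succ_iff_lt_or_eq.1 h2 with h3 | rfl
      · exact hm m h1 h3
      · intro h4
        rw [← map_pow, ← ht, hc] at h4
        exact Bool.noConfusion h4

/-- the order of the image of `g`, computed -/
def ordF {G : Type} [Mul G] (t : G → Bool) (g : G) : ℕ := ordAux t g 168 1 g

theorem ordF_spec {G H : Type} [Group G] [Group H] (π : G →* H) (t : G → Bool)
    (ht : ∀ x, t x = true ↔ π x = 1) (g : G) (h : ordF t g ≠ 0) : orderOf (π g) = ordF t g := by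
  have := ordAux_spec π t ht g 168 1 Nat.one_pos (fun m h1 h2 => by omega)
  rw [pow_one] at this
  exact this h

/-- the list of divisors of 168 -/
def dv : List ℕ := [1, 2, 3, 4, 6, 7, 8, 12, 14, 21, 24, 28, 42, 56, 84, 168]

/-- counts from a list of orders -/
def cnts (L : List ℕ) : List ℕ := dv.map fun d => L.countP fun k => d % k == 0

theorem card_comp {G H : Type} [Group G] [Group H] [Finite G] (π : G →* H)
    (hπ : Function.Surjective π) (P : H → Prop) :
    Nat.card {g : G // P (π g)} = Nat.card {h : H // P h} * Nat.card π.ker := by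
  classical
  rw [← Nat.card_prod]
  let s : H → G := fun h => (hπ h).choose
  have hs : ∀ h, π (s h) = h := fun h => (hπ h).choose_spec
  refine Nat.card_congr
    { toFun := fun x => (⟨π x.1, x.2⟩, ⟨(s (π x.1))⁻¹ * x.1, by simp [MonoidHom.mem_ker, hs]⟩)
      invFun := fun x => ⟨s x.1.1 * x.2.1, by
        rw [map_mul, hs, (MonoidHom.mem_ker.1 x.2.2), mul_one]; exact x.1.2⟩
      left_inv := fun x => by simp
      right_inv := fun x => by
        have : π (s x.1.1 * x.2.1) = x.1.1 := by
          rw [map_mul, hs, (MonoidHom.mem_ker.1 x.2.2), mul_one]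
        ext
        · exact this
        · simp only [this]; simp }

/-- the certificate -/
theorem ee_of_cert {G H : Type} [Group G] [Group H] [Finite G] (π : G →* H)
    (hπ : Function.Surjective π) (t : G → Bool) (ht : ∀ x, t x = true ↔ π x = 1)
    (L : List G) (hL : ∀ g, g ∈ L) (hn : L.Nodup) (c : ℕ) (hc : Nat.card π.ker = c) (hc0 : c ≠ 0)
    (v : List ℕ) (h1 : (L.map (ordF t)).all (fun k => 168 % k == 0) = true)
    (h2 : cnts (L.map (ordF t)) = v.map (· * c)) :
    (∀ h : H, h ^ 168 = 1) ∧ dv.map (ee H) = v := by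
  classical
  have h3 : ∀ g, ordF t g ∣ 168 := fun g => by
    have := List.all_eq_true.1 h1 _ (List.mem_map_of_mem (hL g))
    exact Nat.dvd_of_mod_eq_zero (by simpa using this)
  have h4 : ∀ g, orderOf (π g) = ordF t g := fun g => ordF_spec π t ht g fun h => by
    have := h3 g
    rw [h] at this
    omega
  refine ⟨fun h => ?_, ?_⟩
  · obtain ⟨g, rfl⟩ := hπ h
    rw [← orderOf_dvd_iff_pow_eq_one, h4]
    exact h3 g
  · have h5 : ∀ d, ee H d * c = (L.map (ordF t)).countP fun k => d % k == 0 := fun d => by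
      unfold ee
      rw [← hc, ← card_comp π hπ (fun h => h ^ d = 1), List.countP_map, List.countP_eq_length_filter,
        ← List.toFinset_card_of_nodup (hn.filter _), ← Nat.card_eq_finsetCard]
      refine Nat.card_congr (Equiv.subtypeEquivRight fun g => ?_)
      simp only [List.mem_toFinset, List.mem_filter, hL, true_and, Function.comp, beq_iff_eq]
      rw [← orderOf_dvd_iff_pow_eq_one, h4, Nat.dvd_iff_mod_eq_zero]
    have h6 : (dv.map (ee H)).map (· * c) = v.map (· * c) := by
      rw [← h2, List.map_map]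
      exact List.map_congr_left fun d _ => h5 d
    exact (List.map_injective_iff.2 fun a b h => Nat.eq_of_mul_eq_mul_right (Nat.pos_of_ne_zero hc0) h) h6

end Cfsg.Agent.Lib.OrdType
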