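import Cfsg.Agent.Lib.OrdType.Groups

set_option autoImplicit false
set_option synthInstance.maxSize 2048

namespace Cfsg.Agent.Lib.OrdType

open Multiplicative

/-! `C21 ⋊ (C3 × Q16)` -/
abbrev N21 : Type := Z 7 × Z 3
def eN21 : En N21 := enP (enZ 6) (enZ 2)
def φA21 : A6 →* MulAut N21 :=
  mkAct eA6 eN21 (fun k v => (sc (w3 k.1 * sg (toAdd k.2).val) v.1, sc (sg (toAdd k.2).val) v.2))
    (by decide +kernel)
def eQ16 : En (QuaternionGroup 4) := enQ 4 (enZ 7)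
def εQ : QuaternionGroup 4 → Z 2
  | .a i => ofAdd (i.val : ZMod 2)
  | .xa i => ofAdd (i.val : ZMod 2)
def εQ16 : QuaternionGroup 4 →* Z 2 := mkHom eQ16 εQ (by decide +kernel)
abbrev K48 : Type := Z 3 × QuaternionGroup 4
def φG2 : K48 →* MulAut N21 := φA21.comp ((MonoidHom.id (Z 3)).prodMap εQ16)
abbrev G2 : Type := N21 ⋊[φG2] K48
def eG2 : En G2 := enS _ eN21 (enP (enZ 2) eQ16)

theorem ee_G2 : (∀ h : G2, h ^ 168 = 1) ∧
    dv.map (ee G2) = [1, 2, 45, 92, 90, 7, 176, 612, 14, 63, 864, 140, 126, 224, 756, 1008] :=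
  ee_cert eG2 _ (by decide +kernel)

theorem solvable_Q16 : Group.IsSolvable (QuaternionGroup 4) := by
  haveI : Fact (Nat.Prime 2) := ⟨Nat.prime_two⟩
  have h : IsPGroup 2 (QuaternionGroup 4) := IsPGroup.of_card (n := 4) (by
    rw [Nat.card_eq_fintype_card, QuaternionGroup.card]; norm_num)
  haveI := h.isNilpotent
  infer_instance

theorem solvable_G2 : Group.IsSolvable G2 := by
  haveI := solvable_Q16
  exact solvable_sd _

theorem solvable_AG : Group.IsSolvable AG := by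
  haveI : Group.IsSolvable F21 := solvable_sd _
  exact solvable_sd _

/-! small ones -/
def eQ8 : En (QuaternionGroup 2) := enQ 2 (enZ 3)

theorem ee_Q8 : (∀ h : QuaternionGroup 2, h ^ 168 = 1) ∧
    dv.map (ee (QuaternionGroup 2)) = [1, 2, 1, 8, 2, 1, 8, 8, 2, 1, 8, 8, 2, 8, 8, 8] :=
  ee_cert eQ8 _ (by decide +kernel)

theorem ee_Z12 : (∀ h : Z 12, h ^ 168 = 1) ∧
    dv.map (ee (Z 12)) = [1, 2, 3, 4, 6, 1, 4, 12, 2, 3, 12, 4, 6, 4, 12, 12] :=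
  ee_cert (enZ 11) _ (by decide +kernel)

/-! `C7 ⋊ (C4 × A4)` -/
abbrev V4 : Type := Z 2 × Z 2
def eV4 : En V4 := enP (enZ 1) (enZ 1)
def rot (v : V4) : V4 := (v.2, v.1 * v.2)
def φA4 : Z 3 →* MulAut V4 :=
  mkAct (enZ 2) eV4 (fun j v => rot^[(toAdd j).val] v) (by decide +kernel)
abbrev A4 : Type := V4 ⋊[φA4] Z 3
def eA4 : En A4 := enS _ eV4 (enZ 2)
def φA7 : A6 →* MulAut (Z 7) :=
  mkAct eA6 (enZ 6) (fun k v => sc (w3 k.1 * sg (toAdd k.2).val) v) (by decide +kernel)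
def ε4 : Z 4 →* Z 2 := mkHom (enZ 3) (fun i => ofAdd ((toAdd i).val : ZMod 2)) (by decide +kernel)
def φH3 : A4 × Z 4 →* MulAut (Z 7) := φA7.comp (MonoidHom.prodMap SemidirectProduct.rightHom ε4)
abbrev H3 : Type := Z 7 ⋊[φH3] (A4 × Z 4)
def eH3 : En H3 := enS _ (enZ 6) (enP eA4 (enZ 3))

theorem ee_H3 : (∀ h : H3, h ^ 168 = 1) ∧
    dv.map (ee H3) = [1, 8, 57, 64, 120, 7, 64, 288, 56, 63, 288, 112, 168, 112, 336, 336] :=
  ee_cert eH3 _ (by decide +kernel)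

end Cfsg.Agent.Lib.OrdType
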