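import Cfsg.Agent.Lib.OrdType.Groups

set_option autoImplicit false
set_option synthInstance.maxSize 2048

namespace Cfsg.Agent.Lib.OrdType

open Multiplicative

/-! `Dic7 ⋊ (SL₂(3) ∘ C4)` -/
def φD7 : Z 4 →* MulAut (Z 7) :=
  mkAct (enZ 3) (enZ 6) (fun i v => sc (sg (toAdd i).val) v) (by decide +kernel)
abbrev Dic7 : Type := Z 7 ⋊[φD7] Z 4
def eDic7 : En Dic7 := enS _ (enZ 6) (enZ 3)
def φAD : A6 →* MulAut Dic7 :=
  mkAct eA6 eDic7 (fun k v => ⟨sc (w3 k.1) v.left, sc (sg (toAdd k.2).val) v.right⟩)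
    (by decide +kernel)
abbrev N8 : Type := Z 4 × Z 2
def eN8 : En N8 := enP (enZ 3) (enZ 1)
def φP16 : Z 2 →* MulAut N8 :=
  mkAct (enZ 1) eN8
    (fun b v => (v.1 * ofAdd ((2 * ((toAdd v.2).val * (toAdd b).val) : ℕ) : ZMod 4), v.2))
    (by decide +kernel)
abbrev P16 : Type := N8 ⋊[φP16] Z 2
def eP16 : En P16 := enS _ eN8 (enZ 1)
def cliff (x : P16) : P16 :=
  ⟨(x.left.1 * ofAdd (((toAdd x.left.2).val * (1 + 2 * (toAdd x.right).val) : ℕ) : ZMod 4),
    x.left.2 * x.right), x.left.2⟩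
def φL48 : Z 3 →* MulAut P16 :=
  mkAct (enZ 2) eP16 (fun j v => cliff^[(toAdd j).val] v) (by decide +kernel)
abbrev L48 : Type := P16 ⋊[φL48] Z 3
def eL48 : En L48 := enS _ eP16 (enZ 2)
def χL : L48 →* A6 :=
  mkHom eL48 (fun x => (x.right,
    ofAdd ((toAdd x.left.left.1).val : ZMod 2) * x.left.left.2 * x.left.right)) (by decide +kernel)
abbrev G3 : Type := Dic7 ⋊[φAD.comp χL] L48
def eG3 : En G3 := enS _ eDic7 eL48

theorem ee_G3 : (∀ h : G3, h ^ 168 = 1) ∧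
    dv.map (ee G3) =
      [1, 100, 57, 256, 324, 7, 256, 1152, 196, 63, 1152, 448, 420, 448, 1344, 1344] :=
  ee_cert eG3 _ (by decide +kernel)

theorem solvable_G3 : Group.IsSolvable G3 := by
  haveI : Group.IsSolvable Dic7 := solvable_sd _
  haveI : Group.IsSolvable P16 := solvable_sd _
  haveI : Group.IsSolvable L48 := solvable_sd _
  exact solvable_sd _

end Cfsg.Agent.Lib.OrdType
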