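import Cfsg.Agent.Lib.OrdType.Basic

/-! Small solvable groups as iterated semidirect products, with enumerations. -/

set_option autoImplicit false

namespace Cfsg.Agent.Lib.OrdType

/-- an enumeration -/
structure En (G : Type) where
  L : List G
  mem : ∀ g, g ∈ L
  nodup : L.Nodup

theorem En.finite {G : Type} (e : En G) : Finite G :=
  Finite.of_surjective (fun i : Fin e.L.length => e.L.get i) fun g => List.get_of_mem (e.mem g)

abbrev Z (n : ℕ) : Type := Multiplicative (ZMod n)

def enZ (n : ℕ) : En (Z (n + 1)) where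
  L := List.finRange (n + 1)
  mem := fun g => List.mem_finRange (n := n + 1) g
  nodup := List.nodup_finRange (n + 1)

def enP {G H : Type} (e : En G) (f : En H) : En (G × H) where
  L := e.L ×ˢ f.L
  mem := fun g => List.mem_product.2 ⟨e.mem g.1, f.mem g.2⟩
  nodup := e.nodup.product f.nodup

def En.map {G H : Type} (e : En G) (f : G → H) (hf : Function.Bijective f) : En H where
  L := e.L.map f
  mem := fun h => by
    obtain ⟨g, rfl⟩ := hf.2 h
    exact List.mem_map_of_mem (e.mem g)
  nodup := e.nodup.map hf.1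

def enS {N K : Type} [Group N] [Group K] (φ : K →* MulAut N) (e : En N) (f : En K) :
    En (N ⋊[φ] K) :=
  (enP e f).map (fun x => ⟨x.1, x.2⟩) (SemidirectProduct.equivProd (φ := φ)).symm.bijective

def enQ (n : ℕ) (e : En (Z (2 * n))) : En (QuaternionGroup n) where
  L := e.L.map (fun i => QuaternionGroup.a i) ++ e.L.map (fun i => QuaternionGroup.xa i)
  mem := fun g => by
    cases g with
    | a i => exact List.mem_append_left _ (List.mem_map_of_mem (e.mem i))
    | xa i => exact List.mem_append_right _ (List.mem_map_of_mem (e.mem i))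
  nodup := by
    refine List.Nodup.append (e.nodup.map fun a b h => by injection h)
      (e.nodup.map fun a b h => by injection h) ?_
    intro x h1 h2
    obtain ⟨i, -, rfl⟩ := List.mem_map.1 h1
    obtain ⟨j, -, h⟩ := List.mem_map.1 h2
    injection h

/-- check that `f` is multiplicative -/
def homOK {K A : Type} [Mul K] [Mul A] [DecidableEq A] (e : En K) (f : K → A) : Bool :=
  e.L.all fun k => e.L.all fun l => decide (f (k * l) = f k * f l)

def mkHom {K A : Type} [Group K] [Group A] [DecidableEq A] (e : En K) (f : K → A)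
    (h : homOK e f = true) : K →* A :=
  MonoidHom.mk' f fun k l => by
    have := List.all_eq_true.1 (List.all_eq_true.1 h k (e.mem k)) l (e.mem l)
    exact of_decide_eq_true this

/-- check that `act` is an action by automorphisms -/
def actOK {K N : Type} [Group K] [Group N] [DecidableEq N] (e : En K) (f : En N)
    (act : K → N → N) : Bool :=
  (f.L.all fun x => decide (act 1 x = x)) &&
  (e.L.all fun k => e.L.all fun l => f.L.all fun x => decide (act (k * l) x = act k (act l x))) &&
  (e.L.all fun k => homOK f (act k))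

theorem actOK_spec {K N : Type} [Group K] [Group N] [DecidableEq N] {e : En K} {f : En N}
    {act : K → N → N} (h : actOK e f act = true) :
    (∀ x, act 1 x = x) ∧ (∀ k l x, act (k * l) x = act k (act l x)) ∧
      ∀ k x y, act k (x * y) = act k x * act k y := by
  simp only [actOK, homOK, Bool.and_eq_true, List.all_eq_true, decide_eq_true_eq] at h
  exact ⟨fun x => h.1.1 x (f.mem x), fun k l x => h.1.2 k (e.mem k) l (e.mem l) x (f.mem x),
    fun k x y => h.2 k (e.mem k) x (f.mem x) y (f.mem y)⟩

def mkAct {K N : Type} [Group K] [Group N] [DecidableEq N] (e : En K) (f : En N)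
    (act : K → N → N) (h : actOK e f act = true) : K →* MulAut N where
  toFun k :=
    { toFun := act k
      invFun := act k⁻¹
      left_inv := fun x => by rw [← (actOK_spec h).2.1, inv_mul_cancel, (actOK_spec h).1]
      right_inv := fun x => by rw [← (actOK_spec h).2.1, mul_inv_cancel, (actOK_spec h).1]
      map_mul' := (actOK_spec h).2.2 k }
  map_one' := MulEquiv.ext (actOK_spec h).1
  map_mul' k l := MulEquiv.ext ((actOK_spec h).2.1 k l)

theorem solvable_sd {N K : Type} [Group N] [Group K] (φ : K →* MulAut N) [Group.IsSolvable N]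
    [Group.IsSolvable K] : Group.IsSolvable (N ⋊[φ] K) :=
  solvable_of_ker_le_range (SemidirectProduct.inl : N →* N ⋊[φ] K) SemidirectProduct.rightHom
    (by rw [SemidirectProduct.range_inl_eq_ker_rightHom])

theorem ee_cert {G : Type} [Group G] [DecidableEq G] (e : En G) (v : List ℕ)
    (h : ((e.L.map (ordF fun x => decide (x = 1))).all (fun k => 168 % k == 0) &&
      (cnts (e.L.map (ordF fun x => decide (x = 1))) == v)) = true) :
    (∀ h : G, h ^ 168 = 1) ∧ dv.map (ee G) = v := by
  haveI := e.finite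
  rw [Bool.and_eq_true, beq_iff_eq] at h
  obtain ⟨h1, h2⟩ := h
  refine ee_of_cert (MonoidHom.id G) Function.surjective_id _ (fun x => by simp) e.L e.mem e.nodup
    1 (by simp) one_ne_zero v h1 (by simpa using h2)

open Multiplicative

/-- multiplication by a scalar on `Z n` -/
def sc {n : ℕ} (c : ZMod n) (v : Z n) : Z n := ofAdd (c * toAdd v)

/-- `2 ^ j` mod 7 -/
def w3 (j : Z 3) : ZMod 7 := 2 ^ (toAdd j).val

/-- sign -/
def sg {n : ℕ} (k : ℕ) : ZMod n := cond (k % 2 == 0) 1 (-1)

abbrev A6 : Type := Z 3 × Z 2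
def eA6 : En A6 := enP (enZ 2) (enZ 1)

/-! `7:3` -/
def φF21 : Z 3 →* MulAut (Z 7) := mkAct (enZ 2) (enZ 6) (fun j v => sc (w3 j) v) (by decide +kernel)
abbrev F21 : Type := Z 7 ⋊[φF21] Z 3
def eF21 : En F21 := enS _ (enZ 6) (enZ 2)

theorem ee_F21 : (∀ h : F21, h ^ 168 = 1) ∧
    dv.map (ee F21) = [1, 1, 15, 1, 15, 7, 1, 15, 7, 21, 15, 7, 21, 7, 21, 21] :=
  ee_cert eF21 _ (by decide +kernel)

/-! `AΓL(1,8)` -/
abbrev V8 : Type := Z 2 × Z 2 × Z 2
def eV8 : En V8 := enP (enZ 1) (enP (enZ 1) (enZ 1))
def mulα (v : V8) : V8 := (v.2.2, v.1 * v.2.2, v.2.1)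
def frob (v : V8) : V8 := (v.1, v.2.2, v.2.1 * v.2.2)
def φAG : F21 →* MulAut V8 :=
  mkAct eF21 eV8 (fun k v => mulα^[(toAdd k.left).val] (frob^[(toAdd k.right).val] v))
    (by decide +kernel)
abbrev AG : Type := V8 ⋊[φAG] F21
def eAG : En AG := enS _ eV8 eF21

theorem ee_AG : (∀ h : AG, h ^ 168 = 1) ∧
    dv.map (ee AG) = [1, 8, 57, 8, 120, 49, 8, 120, 56, 105, 120, 56, 168, 56, 168, 168] :=
  ee_cert eAG _ (by decide +kernel)

end Cfsg.Agent.Lib.OrdType
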