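import Cfsg.Agent.Lib.OrdType.Groups

/-! `PGL₂(7)` as the matrices of determinant `±1` modulo `±1`. -/

set_option autoImplicit false

namespace Cfsg.Agent.Lib.OrdType

/-- matrices of determinant `± 1` over `ZMod 7` -/
@[ext] structure M2 where
  a : ZMod 7
  b : ZMod 7
  c : ZMod 7
  d : ZMod 7
  h : (a * d - b * c) * (a * d - b * c) = 1

instance decEqM2 : DecidableEq M2 := fun x y =>
  decidable_of_iff (x.a = y.a ∧ x.b = y.b ∧ x.c = y.c ∧ x.d = y.d) M2.ext_iff.symm

instance mulM2 : Mul M2 where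
  mul x y := ⟨x.a * y.a + x.b * y.c, x.a * y.b + x.b * y.d, x.c * y.a + x.d * y.c,
    x.c * y.b + x.d * y.d, by
      have h1 := x.h
      have h2 := y.h
      linear_combination (y.a * y.d - y.b * y.c) * (y.a * y.d - y.b * y.c) * h1 + h2⟩

instance oneM2 : One M2 := ⟨⟨1, 0, 0, 1, by ring⟩⟩

instance invM2 : Inv M2 where
  inv x := ⟨x.d * (x.a * x.d - x.b * x.c), -x.b * (x.a * x.d - x.b * x.c),
    -x.c * (x.a * x.d - x.b * x.c), x.a * (x.a * x.d - x.b * x.c), by
      have h1 := x.h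
      linear_combination ((x.a * x.d - x.b * x.c) ^ 4 + (x.a * x.d - x.b * x.c) ^ 2 + 1) * h1⟩

theorem M2.mul_a (x y : M2) : (x * y).a = x.a * y.a + x.b * y.c := rfl
theorem M2.mul_b (x y : M2) : (x * y).b = x.a * y.b + x.b * y.d := rfl
theorem M2.mul_c (x y : M2) : (x * y).c = x.c * y.a + x.d * y.c := rfl
theorem M2.mul_d (x y : M2) : (x * y).d = x.c * y.b + x.d * y.d := rfl
theorem M2.one_a : (1 : M2).a = 1 := rfl
theorem M2.one_b : (1 : M2).b = 0 := rfl
theorem M2.one_c : (1 : M2).c = 0 := rfl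
theorem M2.one_d : (1 : M2).d = 1 := rfl
theorem M2.inv_a (x : M2) : x⁻¹.a = x.d * (x.a * x.d - x.b * x.c) := rfl
theorem M2.inv_b (x : M2) : x⁻¹.b = -x.b * (x.a * x.d - x.b * x.c) := rfl
theorem M2.inv_c (x : M2) : x⁻¹.c = -x.c * (x.a * x.d - x.b * x.c) := rfl
theorem M2.inv_d (x : M2) : x⁻¹.d = x.a * (x.a * x.d - x.b * x.c) := rfl

instance groupM2 : Group M2 := Group.ofLeftAxioms
  (fun x y z => by
    ext <;> simp only [M2.mul_a, M2.mul_b, M2.mul_c, M2.mul_d] <;> ring)
  (fun x => by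
    ext <;> simp only [M2.mul_a, M2.mul_b, M2.mul_c, M2.mul_d, M2.one_a, M2.one_b, M2.one_c,
      M2.one_d] <;> ring)
  (fun x => by
    have h := x.h
    ext <;> simp only [M2.mul_a, M2.mul_b, M2.mul_c, M2.mul_d, M2.one_a, M2.one_b, M2.one_c,
      M2.one_d, M2.inv_a, M2.inv_b, M2.inv_c, M2.inv_d]
    · linear_combination h
    · ring
    · ring
    · linear_combination h)

/-- tuple to matrix -/
def toM2 (t : Z 7 × Z 7 × Z 7 × Z 7) : Option M2 :=
  if h : (t.1.toAdd * t.2.2.2.toAdd - t.2.1.toAdd * t.2.2.1.toAdd) *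
      (t.1.toAdd * t.2.2.2.toAdd - t.2.1.toAdd * t.2.2.1.toAdd) = 1 then
    some ⟨t.1.toAdd, t.2.1.toAdd, t.2.2.1.toAdd, t.2.2.2.toAdd, h⟩ else none

def eM2 : En M2 where
  L := (enP (enZ 6) (enP (enZ 6) (enP (enZ 6) (enZ 6)))).L.filterMap toM2
  mem := fun x => List.mem_filterMap.2
    ⟨(.ofAdd x.a, .ofAdd x.b, .ofAdd x.c, .ofAdd x.d), En.mem _ _, dif_pos x.h⟩
  nodup := by
    refine List.Nodup.filterMap (fun s t x h1 h2 => ?_) (En.nodup _)
    unfold toM2 at h1 h2
    simp only [Option.mem_def, Option.dite_none_right_eq_some, Option.some.injEq] at h1 h2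
    obtain ⟨_, rfl⟩ := h1
    obtain ⟨_, h⟩ := h2
    have h3 := M2.ext_iff.1 h
    exact (Prod.ext h3.1 (Prod.ext h3.2.1 (Prod.ext h3.2.2.1 h3.2.2.2))).symm

/-- `-1` -/
def negOne : M2 := ⟨-1, 0, 0, -1, by ring⟩

theorem negOne_sq : negOne * negOne = 1 := by decide +kernel

theorem negOne_comm (x : M2) : negOne * x = x * negOne := by
  ext <;> simp only [M2.mul_a, M2.mul_b, M2.mul_c, M2.mul_d, negOne] <;> ring

/-- `{±1}` -/
def pm : Subgroup M2 where
  carrier := {x | x = 1 ∨ x = negOne}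
  one_mem' := Or.inl rfl
  mul_mem' := by
    rintro x y (rfl | rfl) (rfl | rfl)
    · exact Or.inl (mul_one _)
    · exact Or.inr (one_mul _)
    · exact Or.inr (mul_one _)
    · exact Or.inl negOne_sq
  inv_mem' := by
    rintro x (rfl | rfl)
    · exact Or.inl inv_one
    · exact Or.inr (inv_eq_of_mul_eq_one_right negOne_sq)

instance pm_normal : pm.Normal where
  conj_mem := by
    rintro x (rfl | rfl) g
    · exact Or.inl (by simp)
    · exact Or.inr (by rw [← negOne_comm]; simp)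

theorem card_pm : Nat.card pm = 2 := by
  have h : (1 : M2) ≠ negOne := by decide +kernel
  exact Nat.card_eq_two_iff.2 ⟨⟨1, Or.inl rfl⟩, ⟨negOne, Or.inr rfl⟩,
    fun e => h (congrArg Subtype.val e), by
      ext ⟨x, hx⟩
      simp only [Set.mem_insert_iff, Set.mem_singleton_iff, Subtype.mk.injEq, Set.mem_univ,
        iff_true]
      exact hx.imp Subtype.ext Subtype.ext⟩

abbrev PGL : Type := M2 ⧸ pm

theorem finite_PGL : Finite PGL := by
  haveI := eM2.finite
  infer_instance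

theorem ee_PGL : (∀ h : PGL, h ^ 168 = 1) ∧
    dv.map (ee PGL) =
      [1, 50, 57, 92, 162, 49, 176, 204, 98, 105, 288, 140, 210, 224, 252, 336] := by
  haveI := eM2.finite
  have h : ((eM2.L.map (ordF fun x => decide (x = 1 ∨ x = negOne))).all (fun k => 168 % k == 0) &&
      (cnts (eM2.L.map (ordF fun x => decide (x = 1 ∨ x = negOne))) ==
        [1, 50, 57, 92, 162, 49, 176, 204, 98, 105, 288, 140, 210, 224, 252, 336].map (· * 2))) =
      true := by decide +kernel
  rw [Bool.and_eq_true, beq_iff_eq] at h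
  exact ee_of_cert (QuotientGroup.mk' pm) (QuotientGroup.mk'_surjective pm) _
    (fun x => by rw [decide_eq_true_iff, QuotientGroup.mk'_apply, QuotientGroup.eq_one_iff]; rfl)
    eM2.L eM2.mem eM2.nodup 2 (by rw [QuotientGroup.ker_mk', card_pm]) two_ne_zero _ h.1 h.2

open scoped commutatorElement in
theorem not_solvable_PGL : ¬ Group.IsSolvable PGL := by
  let x : M2 := ⟨2, 0, 0, 4, by decide⟩
  let y : M2 := ⟨0, 1, 1, 1, by decide⟩
  let z : M2 := ⟨1, 1, 0, 6, by decide⟩
  have key : x = ⁅y * x * y⁻¹, z * x * z⁻¹⁆ := by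
    rw [commutatorElement_def]
    decide +kernel
  have hx : (QuotientGroup.mk' pm) x ≠ 1 := by
    rw [Ne, QuotientGroup.mk'_apply, QuotientGroup.eq_one_iff]
    change ¬ (x = 1 ∨ x = negOne)
    decide +kernel
  refine not_isSolvable_of_mem_derivedSeries hx fun n => ?_
  induction n with
  | zero => exact Subgroup.mem_top _
  | succ n ih =>
    rw [key, map_commutatorElement, derivedSeries_succ]
    refine Subgroup.commutator_mem_commutator ?_ ?_
    · rw [map_mul, map_mul, map_inv]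
      exact (derivedSeries_normal _ _).conj_mem _ ih _
    · rw [map_mul, map_mul, map_inv]
      exact (derivedSeries_normal _ _).conj_mem _ ih _

end Cfsg.Agent.Lib.OrdType
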